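import Mathlib
import Cfsg.Agent.Lib.StdRu.Ru
import Cfsg.Agent.Lib.MultC.Ru.Ub
import Cfsg.Agent.Lib.StdInt.Cover

/-! The double cover of the Rudvalis group: the central involution is not a fourth power. -/

set_option autoImplicit false
set_option maxRecDepth 100000

namespace CfsgLib.StdRu

open Subgroup CfsgLib.Comput CfsgLib.FiLoc CfsgLib.MultC CfsgLib.MultC.Ru CfsgLib.StdInt CfsgLib.Schur
open CfsgLib.McLRec (Dbl)

theorem allHold_quo {Y : Type*} [Group Y] {y : ℕ → Y} {A : ℕ} (h : Cen y A) {N : Subgroup (cenA y A)} [N.Normal]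
    (hN : InA h.lift A N) {step : ℕ → ℕ → ℕ} {x0 : ℕ} (W : WM y step x0) {l : List Eqn} {zs : List ℕ}
    (hc : eqAllH step x0 A l zs = true) : AllHold (fun m => QuotientGroup.mk' N (h.lift m)) l := by
  induction l generalizing zs with
  | nil => exact AllHold.nil _
  | cons e l ih =>
    cases zs with
    | nil => exact absurd hc (by simp [eqAllH])
    | cons z zs =>
      obtain ⟨h1, h2⟩ := band_eq_true.mp (hc : band (band (inA A z)
        (Nat.beq (actL step e.1 x0) (act step z (actL step e.2 x0)))) (eqAllH step x0 A l zs) = true)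
      obtain ⟨h3, h4⟩ := band_eq_true.mp h1
      refine allHold_cons ?_ (ih h2)
      have h5 : Comput.evL y e.1 = Comput.evL y (z :: e.2) := W.holds (e := (e.1, z :: e.2)) h4
      have h6 : Comput.evL h.lift e.1 = Comput.evL h.lift (z :: e.2) := Subtype.ext
        ((map_evL (cenA y A).subtype h.lift _).trans (h5.trans (map_evL (cenA y A).subtype h.lift _).symm))
      have h7 := congrArg (QuotientGroup.mk' N) h6
      rw [evL_cons, map_mul, show QuotientGroup.mk' N (ev h.lift z) = 1 from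
        (QuotientGroup.eq_one_iff _).mpr (ev_mem hN h3), one_mul, map_evL, map_evL] at h7
      exact h7

theorem evL_flat {G : Type*} [Group G] (g : ℕ → G) (l : List ℕ) (n : ℕ) :
    Comput.evL g (List.replicate n l).flatten = Comput.evL g l ^ n := by
  induction n with
  | zero => exact (pow_zero _).symm
  | succ n ih => rw [List.replicate_succ, List.flatten_cons, evL_append, ih, pow_succ']

variable {L Q : Type*} [Group L] [Group Q]

open CfsgLib.Ru.P Cov in
/-- the projective representation lifts to the double cover -/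
theorem exists_lift {σ : L →* PG} {t : L} (h : Dbl σ t) (hp : commutator L = ⊤) :
    ∃ (g : ℕ → PG) (η : L →* Equiv.Perm (Fin 16240)), (∀ m, (g m).1 = permG 4060 W m) ∧
      (∀ l w, inA 0x7fffffff w = true → σ l = ev g w → η l ^ 4 = ev (permG 16240 Y) w ^ 4) ∧
      ((∀ l, η l ^ 4 = 1) ∨ ∀ l, η l = 1 ∨ η l = ev (permG 16240 Y) 0x2020 → σ l = 1) := by
  have hm := exists_letters W_ok (inA_top E)
  let g : ℕ → PG := fun m => ⟨_, hm m⟩
  have hg : ∀ m, Acts 4060 (finPt 4060) (nth Net.nil W m) (g m) := acts_permG W_ok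
  have E1 : Eqs g := eqs_of_WM (model.wm hg (by norm_num))
  let N := zpowers (cen.lift 31)
  have hZ : N ≤ center _ := zpowers_le.2 (cen.inCenter 31 (by decide +kernel))
  have : N.Normal := ⟨fun n hn x => by rwa [mem_center_iff.1 (hZ hn) x, mul_inv_cancel_right]⟩
  have hN : InA cen.lift (maskOf [31]) N := fun m hm => by
    rw [List.mem_singleton.1 (mem_of_maskOf hm)]; exact mem_zpowers _
  let π := QuotientGroup.mk' N
  have E2 : Eqs (fun m => (g m, π (cen.lift m))) :=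
    { l6 := E1.l6.prod (allHold_quo cen hN wmY e_l6_0)
      x6 := E1.x6.prod (allHold_quo cen hN wmY e_x6_0)
      l5 := E1.l5.prod (allHold_quo cen hN wmY e_l5_0)
      x5 := E1.x5.prod (allHold_quo cen hN wmY e_x5_0)
      l4 := E1.l4.prod (allHold_quo cen hN wmY e_l4_0)
      x4 := E1.x4.prod (allHold_quo cen hN wmY e_x4_0)
      l3 := E1.l3.prod (allHold_quo cen hN wmY e_l3_0)
      x3 := E1.x3.prod (allHold_quo cen hN wmY e_x3_0)
      l2 := E1.l2.prod (allHold_quo cen hN wmY e_l2_0)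
      x2 := E1.x2.prod (allHold_quo cen hN wmY e_x2_0)
      l1 := E1.l1.prod (Cen.allHold_split 32 (allHold_quo cen hN wmY e_l1_0) (allHold_quo cen hN wmY e_l1_1))
      x1 := E1.x1.prod (allHold_quo cen hN wmY e_x1_0)
      l0 := E1.l0.prod (allHold_quo cen hN wmY e_l0_0)
      x0 := E1.x0.prod (allHold_quo cen hN wmY e_x0_0)
      xd := E1.xd.prod (allHold_quo cen hN wmY e_xd_0)
      mx := E1.mx.prod (allHold_quo cen hN wmY e_mx_0)
      nc := E1.nc.prod (allHold_quo cen hN wmY e_nc_0) }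
  let _ := fstAction PG (cenA (permG 16240 Y) (maskOf [31]) ⧸ N) (Fin 4060)
  obtain ⟨ρ, hρ⟩ := exists_hom_of_card (cl_lift hm)
    ((CfsgLib.Ru.P.card (sm_prod _ (model.sm hg)) E2).trans card_perm.symm)
  have : Group.IsPerfect L := ⟨hp⟩
  obtain ⟨η, hη⟩ := exists_lift_of_perfect_cover (Cov.low.cyclic (by norm_num) (P2.pb model real0 MultC.Ru.card)
    (others model real0 MultC.Ru.card)) (σ := σ) ⟨h.surj, fun x hx => (h.cent x).2 ((h.ker x).1 hx)⟩ (by
      have h1 : zpowers t ≤ stemKer σ := zpowers_le.2 (mem_stemKer.2 ⟨dbl_t h, hp ▸ mem_top t⟩)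
      have h2 := (IsCentralExt.mk h.surj fun x hx => (h.cent x).2 ((h.ker x).1 hx)).finite_stemKer
      simpa [h.ord] using card_le_of_le h1)
    (isCentralExt_pbFst ρ (σ₂ := π) ⟨QuotientGroup.mk'_surjective N, (QuotientGroup.ker_mk' N).symm ▸ hZ⟩)
  have h1 : ∀ l, ρ (σ l) = π (pbSnd ρ π (η l)) := fun l => by rw [← hη]; exact (η l).2
  have h4 : ∀ n ∈ N, n ^ 4 = 1 := by
    rintro _ ⟨k, rfl⟩
    have h5 : Comput.evL _ (List.replicate _ _) = _ := wmY.holds y_c
    rw [evL_replicate, ev_letter _ (by norm_num : 31 < 255)] at h5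
    have h6 : cen.lift 31 ^ 4 = 1 := Subtype.ext h5
    change (cen.lift 31 ^ k) ^ 4 = 1
    rw [← zpow_natCast, ← zpow_mul, mul_comm, zpow_mul, zpow_natCast, h6, one_zpow]
  refine ⟨g, (cenA _ _).subtype.comp ((pbSnd ρ π).comp η), fun _ => rfl, fun l w hw e => ?_, ?_⟩
  · have h2 : π (ev cen.lift w) = π (pbSnd ρ π (η l)) := by
      rw [← h1, e, map_ev, map_ev]
      exact MultC.evF_congr (fun m hm => (hρ _ (inA_top E2 m hm)).symm) hw
    obtain ⟨n, hn, h3⟩ := (QuotientGroup.mk'_eq_mk' N).1 h2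
    have h5 := congrArg (fun x => (cenA _ _).subtype (x ^ 4)) h3
    simp only [(Commute.mul_pow (mem_center_iff.1 (hZ hn) _) 4 :), h4 n hn, mul_one, map_pow, map_ev] at h5
    exact h5.symm
  · have := simple_perm
    refine Or.imp (fun (h3 : ρ.ker = ⊤) l => congrArg Subtype.val (h4 _ ((QuotientGroup.eq_one_iff _).1
      ((h1 l).symm.trans (eq_top_iff.1 h3 trivial))))) (fun h3 l e => (MonoidHom.ker_eq_bot_iff _).1 h3 ?_)
        (inferInstance : ρ.ker.Normal).eq_bot_or_eq_top.symm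
    rw [h1, map_one]
    refine (QuotientGroup.eq_one_iff _).2 ?_
    rcases e with e | e
    · exact (Subtype.ext e : pbSnd ρ π (η l) = 1) ▸ one_mem N
    · exact (Subtype.ext (e.trans (map_ev (cenA _ _).subtype cen.lift _).symm) :
        pbSnd ρ π (η l) = ev cen.lift 0x2020) ▸ ev_mem hN (by decide +kernel)

/-- the relations in the double cover -/
theorem cover_rel {σ : L →* PG} {t : L} (h : Dbl σ t) (hp : commutator L = ⊤) : (∃ β, β * β = t) ∧
    ∃ a b : L, a ^ 8 = 1 ∧ b ^ 8 = 1 ∧ (a ^ 4 * b ^ 4) ^ 3 = t ∧ σ (a ^ 4) ≠ 1 := by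
  obtain ⟨g, η, hg, h1, h2⟩ := exists_lift h hp
  choose x hx using fun w => h.surj (ev g w)
  have h0 : ev (permG 16240 Cov.Y) 0x2020 ≠ 1 := fun e =>
    (SM.perm Cov.Y_ok (by norm_num)).smul_pt_ne (by norm_num) y_5 (by rw [e, one_smul])
  have e1 : Comput.evL _ (List.replicate _ _) = Comput.evL _ [] := Cov.wmY.holds y_1
  have e2 : Comput.evL _ (List.replicate _ _) = Comput.evL _ [] := Cov.wmY.holds y_2
  have e3 : Comput.evL _ (List.flatten _) = Comput.evL _ [_] := Cov.wmY.holds y_3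
  have e4 : Comput.evL _ (List.flatten _) = Comput.evL _ [_] := Cov.wmY.holds y_4
  simp only [evL_flat, evL_append, evL_replicate, evL_one, evL_nil] at e1 e2 e3 e4
  rw [show 8 = 4 * 2 from rfl, pow_mul, ← h1 _ _ (by decide +kernel) (hx _), ← pow_mul, ← map_pow] at e1 e2
  rw [← h1 _ _ (by decide +kernel) (hx _), ← h1 _ _ (by decide +kernel) (hx _)] at e3 e4
  have h2 := h2.resolve_left fun e => h0 (by rw [← e3, e, e, one_mul, one_pow])
  simp only [← map_pow, ← map_mul] at e3 e4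
  have h3 : ∀ l, η l = ev (permG 16240 Cov.Y) 0x2020 → l = t := fun l e =>
    ((h.ker l).1 (h2 l (Or.inr e))).resolve_left fun e' => h0 (by rw [← e, e', map_one])
  have h4 : ∀ l, η l = 1 → l = 1 := fun l e =>
    ((h.ker l).1 (h2 l (Or.inl e))).resolve_right fun e' => h0 (by rw [← e3, h3 _ e3, ← e', e])
  refine ⟨⟨_ ^ 7, by rw [← pow_add]; exact h3 _ e4⟩, _, _, h4 _ e1, h4 _ e2, h3 _ e3, fun e => ?_⟩
  refine (SM.perm CfsgLib.Ru.P.W_ok (by norm_num)).smul_pt_ne (by norm_num) y_6 ?_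
  rw [map_pow, hx, ev_letter _ (by norm_num : 12 < 255)] at e
  rw [show 0xd0d0d0d = app (app (app 13 12) 12) 12 from rfl, ev_app _ _ (by norm_num), ev_app _ _ (by norm_num),
    ev_app _ _ (by norm_num), ev_letter _ (by norm_num : 12 < 255), ← hg, ← pow_two, ← pow_succ, ← pow_succ,
    ← Subgroup.coe_pow, e]
  rfl

section
variable {σ : L →* Q} {t : L} (h : Dbl σ t) {z b : Q} {T : Subgroup Q} (F : RuF z b T)
include h

theorem dbl_conj {x y : L} (e : IsConj (σ x) (σ y)) : IsConj x y ∨ IsConj x (y * t) := by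
  obtain ⟨q, e⟩ := isConj_iff.1 e
  obtain ⟨k, rfl⟩ := h.surj q
  exact ((dbl_eq h (x := k * x * k⁻¹)).1 (by simpa using e)).imp (fun e => isConj_iff.2 ⟨k, e⟩)
    fun e => isConj_iff.2 ⟨k, e⟩

theorem dbl_conj_sq {x y : L} (e : IsConj (σ x) (σ y)) (h1 : x * x = 1) : y * y = 1 := by
  obtain ⟨q, e⟩ := isConj_iff.1 e
  obtain ⟨k, rfl⟩ := h.surj q
  rw [← dbl_sq h (x := k * x * k⁻¹) (by simpa using e), conj_mul, h1, mul_one, mul_inv_cancel]

include F

theorem ctr_of {u : L} (e : σ u = z) : Ctr ⊤ t u := by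
  have c : ∀ x, Commute x t := fun x => mem_center_iff.1 h.cen x
  have k : ∀ x y, σ x = σ y → Commute y u → Commute x u := fun x y e hy => by
    rcases (dbl_eq h).1 e with rfl | rfl
    exacts [hy, hy.mul_left (c u).symm]
  refine ⟨T.comap σ, le_top, fun y hy => ⟨?_, ?_⟩, fun l _ h1 h2 => (h.ker _).1 ?_⟩
  · obtain ⟨n, hn⟩ := F.two _ hy
    exact ⟨n + 1, by rw [pow_succ, pow_mul, pow_two, dbl_sq h (y := 1) (by rw [map_pow, hn, map_one]), one_mul]⟩
  · obtain ⟨y', h1, h2⟩ := F.rt ((centralizer {u}).map σ) (fun r n hr => by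
      obtain ⟨r, rfl⟩ := h.surj r
      refine ⟨r, mem_centralizer_singleton_iff.2 ?_, rfl⟩
      rcases (dbl_eq h (x := u) (y := r ^ n)).1 (by rw [map_pow, hr, e]) with rfl | rfl
      exacts [(Commute.refl r).pow_right n, ((Commute.refl r).pow_right n).mul_right (c r)]) hy
    exact k _ _ h2.symm (mem_centralizer_singleton_iff.1 h1)
  · rw [map_mul]
    refine F.cen _ (h1.imp fun n hn => by rw [← map_pow, hn, map_one]) fun y hy => ?_
    obtain ⟨y, rfl⟩ := h.surj y
    exact (h2 y hy).map σ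

theorem pw_of {β a c : L} (hβ : β * β = t) (ha : a ^ 8 = 1) (hc : c ^ 8 = 1) (h1 : (a ^ 4 * c ^ 4) ^ 3 = t)
    (h2 : σ (a ^ 4) ≠ 1) : Pw ⊤ t := by
  have ne := dbl_ne h
  have ct : ∀ x, Commute x t := fun x => mem_center_iff.1 h.cen x
  have sq : ∀ x : L, x ^ 8 = 1 → x ^ 4 * x ^ 4 = 1 := fun x hx => by rw [← pow_add, hx]
  have a1 : IsConj (σ (a ^ 4)) z := by
    refine (((F.cls _ (by rw [← map_mul, sq a ha, map_one])).resolve_left h2).resolve_right fun e =>
      F.par (σ (a ^ 2)) (by rw [← map_pow, ← pow_mul, ha, map_one]) ?_)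
    rwa [← map_mul, ← pow_add]
  have b1 : IsConj (σ β) b :=
    ((F.cls _ (by rw [← map_mul, hβ, dbl_t h])).resolve_left fun e => ne (by
      rw [← hβ, dbl_sq h (y := 1) (by rw [e, map_one]), one_mul])).resolve_left fun e =>
        ne (hβ ▸ dbl_conj_sq h (a1.trans e.symm) (sq a ha))
  refine ⟨fun x _ e => ?_, fun u _ u1 u2 u3 => ?_⟩
  · have e1 : x * x * (x * x) = t := by rw [← e, ← pow_two x, ← pow_add]
    rcases F.cls (σ (x * x)) (by rw [← map_mul, e1, dbl_t h]) with e2 | e2 | e2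
    · exact ne (by rw [← e1, dbl_sq h (y := 1) (by rw [e2, map_one]), one_mul])
    · exact ne (e1 ▸ dbl_conj_sq h (a1.trans e2.symm) (sq a ha))
    · exact F.par (σ x) (by rw [← map_pow, e, dbl_t h]) (map_mul σ x x ▸ e2)
  · have e1 : IsConj (σ u) z := ((F.cls _ (by rw [← map_mul, u1, map_one])).resolve_left fun e =>
      ((h.ker u).1 e).elim u2 u3).resolve_right fun e => ne (hβ ▸ dbl_conj_sq h (e.trans b1.symm) u1)
    have k : ∀ x : L, IsConj u (x ^ 4) → ∃ y ∈ (⊤ : Subgroup L), y ^ 4 = u := fun x e => by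
      obtain ⟨q, e⟩ := isConj_iff.1 e.symm
      exact ⟨q * x * q⁻¹, trivial, by rw [conj_pow, e]⟩
    refine ⟨(dbl_conj h (e1.trans a1.symm)).elim (k a) fun e => k c (e.trans (isConj_iff.2 ⟨a ^ 4 * c ^ 4, ?_⟩)), ?_⟩
    · have h3 : ∀ x : L, x ^ 8 = 1 → ∀ w, x ^ 4 * (x ^ 4 * w) = w := fun x hx w => by
        rw [← mul_assoc, sq x hx, one_mul]
      rw [mul_inv_eq_iff_eq_mul, ← h1, pow_three]
      simp only [mul_assoc, h3 a ha, h3 c hc]
    · obtain ⟨q, e⟩ := isConj_iff.1 e1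
      obtain ⟨k, rfl⟩ := h.surj q
      have h3 := (ctr_of h F (u := k * u * k⁻¹) (by simpa using e)).map (f := (MulAut.conj k⁻¹).toMonoidHom)
        (MulEquiv.injective _)
      rw [map_top_of_surjective _ (MulEquiv.surjective _)] at h3
      simpa [mul_assoc, (ct k).eq.symm] using h3

end

theorem pw_cover {σ : L →* PG} {t : L} (h : Dbl σ t) (hp : commutator L = ⊤) : Pw ⊤ t :=
  let ⟨_, _, _, F⟩ := exists_ruF
  let ⟨⟨_, hβ⟩, _, _, h1, h2, h3, h4⟩ := cover_rel h hp
  pw_of h F hβ h1 h2 h3 h4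

end CfsgLib.StdRu
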